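import Cfsg.Agent.SB.Exc.Max.Main
import Cfsg.Agent.SB.Exc.Max.Inst
import Cfsg.Agent.SB.Exc.Max.Perp
import Cfsg.Agent.SB.Exc.Max.FFour
import Cfsg.Agent.SB.Exc.Frm.Main
import Cfsg.Agent.SB.Exc.Frm.MC
import Cfsg.Agent.SB.Exc.CI.Main
import Cfsg.Agent.SB.Exc.NT.Main
import Cfsg.Agent.SB.Exc.Tor.Main

/-!
# S5765 : the non-parabolic rows of `F₄`, `E₆`, `E₇`, `E₈`, `²E₆` (helper50)
-/

set_option autoImplicit false

namespace Cfsg.Agent.SB.Exc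

theorem boxMax : BoxMax := Max.boxMax_of
  (Max.boxMain_of (Max.boxPerp_of Max.boxShape) (Max.boxF4_of Max.boxLoc) (Max.boxE6_of Max.boxShape)) Frm.boxMC

theorem boxCrit : BoxCrit := Crit.boxCrit_of boxCard

theorem boxTor : BoxTor := Tor.boxTor_of boxCI boxCrit

theorem boxNT : BoxNT := NT.boxNT_of boxCI boxCI6 boxCrit

theorem nF4 : BoxN fun p K _ => ChevChar Lie.chevF4 p K := nF4_of Frm.boxFrmF4 boxMax boxTor boxNT

theorem nE6 : BoxN fun p K _ => ChevChar Lie.chevE6 p K := nE6_of Frm.boxFrmE6 boxMax boxTor boxNT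

theorem nE7 : BoxN fun p K _ => ChevChar Lie.chevE7 p K := nE7_of Frm.boxFrmE7 boxMax boxTor boxNT

theorem nE8 : BoxN fun p K _ => ChevChar Lie.chevE8 p K := nE8_of Frm.boxFrmE8 boxMax boxTor boxNT

theorem n2E6 : BoxN fun p K _ => ∃ (F : Type) (_ : Field F) (_ : Fintype F) (_ : CharP F p) (q : ℕ), IsPrimePow q ∧
    Fintype.card F = q ^ 2 ∧ Nonempty (K ≃* Lie.twistedE6 F q) := n2E6_of Frm.boxFrm2E6 boxMax boxTor boxNT

end Cfsg.Agent.SB.Exc
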